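import Mathlib
import Cfsg.Agent.Lib.Helper17.ReeSolv.Defs

set_option autoImplicit false

/-!
# ReeSolv package (CYCP)

A non-trivial subgroup of exponent `p` of a finite group with cyclic Sylow `p`-subgroups is
generated by an element of order `p`.
-/

universe u

namespace Cfsg.Agent.Lib.Helper52.ReeSolv

theorem pkgCycP : Cfsg.Agent.Lib.Helper17.ReeSolv.PkgCycP.{u} := by
  intro G _ _ p hp M hcyc hM hexp
  have hpM : IsPGroup p M := by
    intro x
    refine ⟨1, ?_⟩
    have h := hexp x x.2
    apply Subtype.ext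
    simp only [pow_one, Subgroup.coe_pow, Subgroup.coe_one]
    exact h
  obtain ⟨P, hP⟩ := hpM.exists_le_sylow
  have : IsCyclic ↥(P : Subgroup G) := hcyc P
  have : IsCyclic ↥(M.subgroupOf (P : Subgroup G)) := inferInstance
  have : IsCyclic ↥M :=
    isCyclic_of_surjective (Subgroup.subgroupOfEquivOfLe hP).toMonoidHom
      (Subgroup.subgroupOfEquivOfLe hP).surjective
  obtain ⟨g, hg⟩ := IsCyclic.exists_generator (α := ↥M)
  have hMeq : M = Subgroup.zpowers (g : G) := by
    apply le_antisymm
    · intro x hx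
      obtain ⟨k, hk⟩ := Subgroup.mem_zpowers_iff.mp (hg ⟨x, hx⟩)
      refine Subgroup.mem_zpowers_iff.mpr ⟨k, ?_⟩
      have := congrArg Subtype.val hk
      simpa using this
    · rw [Subgroup.zpowers_le]
      exact g.2
  refine ⟨(g : G), ?_, hMeq⟩
  have hdvd : orderOf (g : G) ∣ p := orderOf_dvd_of_pow_eq_one (hexp _ g.2)
  rcases (Nat.dvd_prime hp.out).mp hdvd with h1 | h1
  · exfalso
    apply hM
    rw [orderOf_eq_one_iff] at h1
    rw [hMeq, h1, Subgroup.zpowers_one_eq_bot]
  · exact h1

end Cfsg.Agent.Lib.Helper52.ReeSolv
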