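import Mathlib
import Cfsg.Agent.Lib.Helper17.ReeSolv.Defs

set_option autoImplicit false

/-!
# ReeSolv package (SOLV)

The last two non-trivial terms of the derived series of a solvable subgroup `S ≠ ⊥`.
-/

universe u

namespace Cfsg.Agent.Lib.Helper52.ReeSolv

open scoped commutatorElement

theorem pkgSolv : Cfsg.Agent.Lib.Helper17.ReeSolv.PkgSolv.{u} := by
  intro G _ _ S hsolv hS
  classical
  have hex : ∃ n, derivedSeries ↥S n = ⊥ := hsolv.solvable
  obtain ⟨n, hn⟩ : ∃ n, n = Nat.find hex := ⟨_, rfl⟩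
  have hnbot : derivedSeries ↥S n = ⊥ := by rw [hn]; exact Nat.find_spec hex
  have hmin : ∀ k, k < n → derivedSeries ↥S k ≠ ⊥ := by
    intro k hk
    rw [hn] at hk
    exact Nat.find_min hex hk
  have htop : (⊤ : Subgroup ↥S) ≠ ⊥ := by
    intro h
    apply hS
    rw [Subgroup.eq_bot_iff_forall]
    intro x hx
    have h1 : (⟨x, hx⟩ : ↥S) ∈ (⊤ : Subgroup ↥S) := Subgroup.mem_top _
    rw [h, Subgroup.mem_bot] at h1
    exact congrArg Subtype.val h1
  have hn1 : 1 ≤ n := by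
    by_contra hlt
    have h0 : n = 0 := by omega
    rw [h0, derivedSeries_zero] at hnbot
    exact htop hnbot
  obtain ⟨k, hk⟩ : ∃ k, n = k + 1 := ⟨n - 1, by omega⟩
  have hDk : derivedSeries ↥S k ≠ ⊥ := hmin k (by omega)
  have hcomm : ⁅derivedSeries ↥S k, derivedSeries ↥S k⁆ = ⊥ := by
    rw [← derivedSeries_succ, ← hk]; exact hnbot
  refine ⟨(derivedSeries ↥S k).map S.subtype, ?_, ?_, ?_, ?_, ?_⟩
  · rintro _ ⟨d, -, rfl⟩
    exact d.2
  · intro h
    apply hDk
    rw [Subgroup.eq_bot_iff_forall]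
    intro d hd
    have h1 : (d : G) ∈ (derivedSeries ↥S k).map S.subtype := ⟨d, hd, rfl⟩
    rw [h, Subgroup.mem_bot] at h1
    exact Subtype.ext h1
  · rintro s hs _ ⟨d, hd, rfl⟩
    refine ⟨⟨s, hs⟩ * d * ⟨s, hs⟩⁻¹, ?_, rfl⟩
    have hnorm : (derivedSeries ↥S k).Normal := inferInstance
    exact hnorm.conj_mem d hd ⟨s, hs⟩
  · rintro _ ⟨d, hd, rfl⟩ _ ⟨e, he, rfl⟩
    have h1 : ⁅d, e⁆ ∈ ⁅derivedSeries ↥S k, derivedSeries ↥S k⁆ :=
      Subgroup.commutator_mem_commutator hd he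
    rw [hcomm, Subgroup.mem_bot, commutatorElement_eq_one_iff_mul_comm] at h1
    exact congrArg Subtype.val h1
  · rcases Nat.eq_zero_or_pos k with hk0 | hkpos
    · left
      subst hk0
      rw [derivedSeries_zero]
      ext x
      constructor
      · rintro ⟨d, -, rfl⟩
        exact d.2
      · intro hx
        exact ⟨⟨x, hx⟩, Subgroup.mem_top _, rfl⟩
    · right
      obtain ⟨j, hj⟩ : ∃ j, k = j + 1 := ⟨k - 1, by omega⟩
      refine ⟨(derivedSeries ↥S j).map S.subtype, ?_, ?_, ?_⟩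
      · rintro _ ⟨d, -, rfl⟩
        exact d.2
      · rintro _ ⟨d, hd, rfl⟩ _ ⟨e, he, rfl⟩
        refine ⟨⁅d, e⁆, ?_, ?_⟩
        · rw [hj, derivedSeries_succ]
          exact Subgroup.commutator_mem_commutator hd he
        · simp [commutatorElement_def]
      · intro hc
        apply hDk
        rw [hj, derivedSeries_succ, eq_bot_iff, Subgroup.commutator_le]
        intro a ha b hb
        rw [Subgroup.mem_bot, commutatorElement_eq_one_iff_mul_comm]
        exact Subtype.ext (hc a ⟨a, ha, rfl⟩ b ⟨b, hb, rfl⟩)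

end Cfsg.Agent.Lib.Helper52.ReeSolv
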