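import Mathlib
import Cfsg.Agent.Lib.Helper17.ReeSolv.Defs

set_option autoImplicit false

/-!
# ReeSolv package (TWO)

A non-trivial subgroup of exponent `2` of a finite group whose Sylow `2`-subgroups have order `8`
has order `2`, `4`, or is a Sylow `2`-subgroup, and lies in a Sylow `2`-subgroup.
-/

universe u

namespace Cfsg.Agent.Lib.Helper52.ReeSolv

theorem pkgTwo : Cfsg.Agent.Lib.Helper17.ReeSolv.PkgTwo.{u} := by
  intro G _ _ D h8 hD hexp
  have hpD : IsPGroup 2 D := by
    intro x
    refine ⟨1, ?_⟩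
    have h := hexp x x.2
    apply Subtype.ext
    simp only [pow_one, Subgroup.coe_pow, Subgroup.coe_one]
    rw [pow_two]
    exact h
  obtain ⟨P, hP⟩ := hpD.exists_le_sylow
  have hdvd : Nat.card D ∣ 8 := by
    rw [← h8 P]
    exact Subgroup.card_dvd_of_le hP
  have hne : Nat.card D ≠ 1 := by
    intro h
    exact hD (Subgroup.card_eq_one.mp h)
  refine ⟨?_, P, hP⟩
  have hmem : Nat.card D ∈ Nat.divisors 8 := by
    rw [Nat.mem_divisors]
    exact ⟨hdvd, by norm_num⟩
  have hdiv : Nat.divisors 8 = {1, 2, 4, 8} := by decide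
  rw [hdiv] at hmem
  simp only [Finset.mem_insert, Finset.mem_singleton] at hmem
  rcases hmem with h | h | h | h
  · exact absurd h hne
  · exact Or.inl h
  · exact Or.inr (Or.inl h)
  · right; right
    refine ⟨P, ?_⟩
    exact Subgroup.eq_of_le_of_card_ge hP (by rw [h, h8 P])

end Cfsg.Agent.Lib.Helper52.ReeSolv
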